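import Mathlib
import Cfsg.Prelude.Def_FusionSystem
import Cfsg.Agent.Lib.Helper38.QdBad
import Cfsg.Agent.Lib.Helper87.FusionNormal

/-!
# The model `N_G(Q)/O_{p'}(C_G(Q))` of the normalizer system of a centric subgroup
-/

set_option autoImplicit false

namespace Cfsg.Agent.Lib.Helper38.QdModel

open Cfsg Cfsg.Agent.Lib Subgroup

universe u

/-- If every `p`-element of `C_G(Q)` lies in the `p`-subgroup `Q`, then `C_G(Q) = Z(Q) × O` with
`O` a `p'`-subgroup normalized by `N_G(Q)`. -/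
theorem exists_pprime_part {G : Type*} [Group G] [Finite G] {p : ℕ} [Fact p.Prime]
    (Q : Subgroup G) (hQ : IsPGroup p Q)
    (hcen : ∀ x ∈ centralizer (Q : Set G), (∃ k : ℕ, x ^ p ^ k = 1) → x ∈ Q) :
    ∃ O : Subgroup G, O ≤ centralizer (Q : Set G) ∧
      (∀ o ∈ O, (∃ k : ℕ, o ^ p ^ k = 1) → o = 1) ∧
      (∀ n ∈ normalizer (Q : Set G), ∀ o ∈ O, n * o * n⁻¹ ∈ O) ∧
      ∀ c ∈ centralizer (Q : Set G), ∃ z ∈ Q, ∃ o ∈ O, c = z * o := by
  have hpp : p.Prime := Fact.out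
  obtain ⟨C, hC⟩ : ∃ C : Subgroup G, C = centralizer (Q : Set G) := ⟨_, rfl⟩
  have hCcomm : ∀ c ∈ C, ∀ q ∈ Q, q * c = c * q := by
    intro c hc q hq
    rw [hC] at hc
    exact Subgroup.mem_centralizer_iff.1 hc q hq
  have hNC : ∀ n ∈ normalizer (Q : Set G), ∀ c ∈ C, n * c * n⁻¹ ∈ C := by
    intro n hn c hc
    rw [hC, Subgroup.mem_centralizer_iff]
    intro q hq
    have h1 : n⁻¹ * q * n ∈ Q := by
      have := (Subgroup.mem_normalizer_iff.1 (Subgroup.inv_mem _ hn) q).1 hq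
      simpa using this
    have h2 := hCcomm c hc _ h1
    calc q * (n * c * n⁻¹) = n * ((n⁻¹ * q * n) * c) * n⁻¹ := by group
      _ = n * (c * (n⁻¹ * q * n)) * n⁻¹ := by rw [h2]
      _ = n * c * n⁻¹ * q := by group
  rw [← hC] at hcen ⊢
  obtain ⟨Zc, hZc⟩ : ∃ Zc : Subgroup ↥C, Zc = Q.subgroupOf C := ⟨_, rfl⟩
  have hZmem : ∀ c : ↥C, c ∈ Zc ↔ (c : G) ∈ Q := by
    intro c; rw [hZc]; exact Subgroup.mem_subgroupOf
  have hZcent : ∀ z ∈ Zc, ∀ c : ↥C, c * z = z * c := by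
    intro z hz c
    apply Subtype.ext
    exact (hCcomm c c.2 z ((hZmem z).1 hz)).symm
  have hZn : Zc.Normal := ⟨fun z hz c => by
    have : c * z * c⁻¹ = z := by rw [hZcent z hz c, mul_inv_cancel_right]
    rw [this]; exact hz⟩
  have hZp : IsPGroup p Zc := by rw [hZc]; exact hQ.comap_subtype
  obtain ⟨S⟩ : Nonempty (Sylow p ↥C) := inferInstance
  have hSZ : (S : Subgroup ↥C) ≤ Zc := by
    intro s hs
    rw [hZmem]
    obtain ⟨k, hk⟩ := S.isPGroup' ⟨s, hs⟩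
    apply hcen _ s.2 ⟨k, ?_⟩
    have := congrArg (fun y : ↥(S : Subgroup ↥C) => ((y : ↥C) : G)) hk
    simpa using this
  have hZS : Zc = (S : Subgroup ↥C) := S.3 hZp hSZ
  have hidx : ¬ p ∣ Zc.index := by rw [hZS]; exact S.not_dvd_index
  obtain ⟨a, ha⟩ := IsPGroup.iff_card.1 hZp
  have hcop : Nat.Coprime (Nat.card Zc) Zc.index := by
    rw [ha]; exact Nat.Coprime.pow_left _ ((Nat.Prime.coprime_iff_not_dvd hpp).2 hidx)
  obtain ⟨H, hH⟩ := Subgroup.exists_right_complement'_of_coprime hcop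
  have hHcard : Nat.card H = Zc.index := (hH.symm.index_eq_card).symm
  have hHp : ¬ p ∣ Nat.card H := by rw [hHcard]; exact hidx
  have hcopk : ∀ k : ℕ, Nat.Coprime (p ^ k) (Nat.card H) := fun k =>
    Nat.Coprime.pow_left _ ((Nat.Prime.coprime_iff_not_dvd hpp).2 hHp)
  have hHpow : ∀ h ∈ H, ((h : ↥C) : G) ^ Nat.card H = 1 := by
    intro h hh
    have h1 : (⟨h, hh⟩ : ↥H) ^ Nat.card H = 1 := pow_card_eq_one'
    have h2 : (h : ↥C) ^ Nat.card H = 1 := by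
      have := congrArg Subtype.val h1
      rw [Subgroup.coe_pow] at this
      exact this
    have h3 := congrArg Subtype.val h2
    rw [Subgroup.coe_pow] at h3
    exact h3
  have htriv : ∀ x : G, x ^ Nat.card H = 1 → (∃ k : ℕ, x ^ p ^ k = 1) → x = 1 := by
    intro x hx ⟨k, hk⟩
    have h1 : orderOf x ∣ Nat.card H := orderOf_dvd_of_pow_eq_one hx
    have h2 : orderOf x ∣ p ^ k := orderOf_dvd_of_pow_eq_one hk
    exact orderOf_eq_one_iff.1 (Nat.eq_one_of_dvd_coprimes (hcopk k) h2 h1)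
  refine ⟨H.map C.subtype, Subgroup.map_subtype_le _, ?_, ?_, ?_⟩
  · rintro _ ⟨h, hh, rfl⟩ hk
    exact htriv _ (hHpow h hh) hk
  · intro n hn o ho
    obtain ⟨h, hh, rfl⟩ := ho
    have hyC : n * ((h : ↥C) : G) * n⁻¹ ∈ C := hNC n hn _ h.2
    obtain ⟨⟨z, h'⟩, hzh⟩ := hH.2 ⟨n * ((h : ↥C) : G) * n⁻¹, hyC⟩
    have hzh' : ((z : ↥C) : G) * ((h' : ↥C) : G) = n * ((h : ↥C) : G) * n⁻¹ :=
      congrArg Subtype.val hzh
    have hzQ : ((z : ↥C) : G) ∈ Q := (hZmem z).1 z.2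
    have hcomm : Commute ((z : ↥C) : G) ((h' : ↥C) : G) := hCcomm _ (h' : ↥C).2 _ hzQ
    have hzk : ((z : ↥C) : G) ^ Nat.card H = 1 := by
      have e1 : (n * ((h : ↥C) : G) * n⁻¹) ^ Nat.card H = 1 := by
        rw [conj_pow, hHpow h hh, mul_one, mul_inv_cancel]
      rw [← hzh', hcomm.mul_pow, hHpow _ h'.2, mul_one] at e1
      exact e1
    obtain ⟨b, hb⟩ := hQ ⟨(z : ↥C), hzQ⟩
    have hzb : ((z : ↥C) : G) ^ p ^ b = 1 := by
      have := congrArg (fun y : ↥Q => (y : G)) hb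
      simpa using this
    have hz1 : ((z : ↥C) : G) = 1 := htriv _ hzk ⟨b, hzb⟩
    refine ⟨h', h'.2, ?_⟩
    show ((h' : ↥C) : G) = n * ((h : ↥C) : G) * n⁻¹
    rw [← hzh', hz1, one_mul]
  · intro c hc
    obtain ⟨⟨z, h'⟩, hzh⟩ := hH.2 ⟨c, hc⟩
    refine ⟨((z : ↥C) : G), (hZmem z).1 z.2, ((h' : ↥C) : G), ⟨(h' : ↥C), h'.2, rfl⟩, ?_⟩
    exact (congrArg Subtype.val hzh).symm

/-- The model `N_G(Q)/O` of the normalizer system of `Q` in `F_P(G)`, for `Q ≤ P` with `N_P(Q)`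
Sylow in `N_G(Q)` and every `p`-element of `C_G(Q)` in `Q`. -/
theorem exists_model {G : Type u} [Group G] [Finite G] {p : ℕ} [Fact p.Prime] (P : Sylow p G)
    (Q : Subgroup G) (hQP : Q ≤ (P : Subgroup G))
    (hFN : ¬ p ∣ (Cfsg.FusionSystem.normalizerIn (P : Subgroup G) Q).relIndex
      (normalizer (Q : Set G)))
    (hcen : ∀ x ∈ centralizer (Q : Set G), (∃ k : ℕ, x ^ p ^ k = 1) → x ∈ Q)
    (Nsys : Cfsg.FusionSystem (Cfsg.FusionSystem.normalizerIn (P : Subgroup G) Q))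
    (hN : (Cfsg.groupFusionSystem (P : Subgroup G)).IsNormalizerSystem Q Nsys) :
    ∃ (L : Type u) (_ : Group L)
      (ι : ↥(Cfsg.FusionSystem.normalizerIn (P : Subgroup G) Q) →* L)
      (π : ↥(normalizer (Q : Set G)) →* L),
      Nsys.IsModel p L ι ∧ ∀ n : ↥(normalizer (Q : Set G)), π n = 1 → (n : G) ∈ Q → n = 1 := by
  have hQp : IsPGroup p Q := P.isPGroup'.to_le hQP
  obtain ⟨O, hOC, hOtriv, hOn, hCdec⟩ := exists_pprime_part Q hQp hcen
  have hPel : ∀ x ∈ (P : Subgroup G), ∃ k : ℕ, x ^ p ^ k = 1 := by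
    intro x hx
    obtain ⟨k, hk⟩ := P.isPGroup' ⟨x, hx⟩
    refine ⟨k, ?_⟩
    have := congrArg Subtype.val hk
    rw [Subgroup.coe_pow] at this
    exact this
  obtain ⟨M, hM⟩ : ∃ M : Subgroup G, M = normalizer (Q : Set G) := ⟨_, rfl⟩
  rw [← hM] at hFN hOn ⊢
  have hTM : Cfsg.FusionSystem.normalizerIn (P : Subgroup G) Q ≤ M := by
    rw [hM]; exact inf_le_right
  have hTP : Cfsg.FusionSystem.normalizerIn (P : Subgroup G) Q ≤ (P : Subgroup G) := inf_le_left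
  have hQM : Q ≤ M := by rw [hM]; exact Subgroup.le_normalizer
  have hOM : O ≤ M := by
    rw [hM]; exact hOC.trans (Subgroup.centralizer_le_normalizer _)
  have hMQ : ∀ g ∈ M, ∀ q ∈ Q, g * q * g⁻¹ ∈ Q := by
    intro g hg q hq
    rw [hM] at hg
    exact (Subgroup.mem_normalizer_iff.1 hg q).1 hq
  have hMQ' : ∀ g ∈ M, ∀ q ∈ Q, g⁻¹ * q * g ∈ Q := by
    intro g hg q hq
    have := hMQ g⁻¹ (M.inv_mem hg) q hq
    simpa using this
  have hOnorm : (O.subgroupOf M).Normal := ⟨fun o ho n =>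
    Subgroup.mem_subgroupOf.2 (hOn n n.2 o (Subgroup.mem_subgroupOf.1 ho))⟩
  obtain ⟨π, hπ⟩ : ∃ π : ↥M →* ↥M ⧸ O.subgroupOf M, π = QuotientGroup.mk' (O.subgroupOf M) :=
    ⟨_, rfl⟩
  have hπs : Function.Surjective π := by rw [hπ]; exact QuotientGroup.mk'_surjective _
  have hπker : ∀ x : ↥M, π x = 1 ↔ (x : G) ∈ O := by
    intro x
    rw [hπ, QuotientGroup.mk'_apply, QuotientGroup.eq_one_iff, Subgroup.mem_subgroupOf]
  have hinjP : ∀ x y : ↥M, π x = π y → (∃ k : ℕ, ((x : G)⁻¹ * (y : G)) ^ p ^ k = 1) → x = y := by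
    intro x y h hk
    have h0 : π (x⁻¹ * y) = 1 := by rw [map_mul, map_inv, h, inv_mul_cancel]
    have h1 := hOtriv _ ((hπker _).1 h0) hk
    exact Subtype.ext (inv_mul_eq_one.1 h1)
  obtain ⟨ι, hι⟩ : ∃ ι : ↥(Cfsg.FusionSystem.normalizerIn (P : Subgroup G) Q) →*
      ↥M ⧸ O.subgroupOf M, ∀ x, ι x = π ⟨x, hTM x.2⟩ :=
    ⟨π.comp (Subgroup.inclusion hTM), fun x => rfl⟩
  -- injectivity
  have hinj : Function.Injective ι := by
    intro x y h
    rw [hι, hι] at h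
    have hxy := hinjP _ _ h (hPel _ ((P : Subgroup G).mul_mem
      ((P : Subgroup G).inv_mem (hTP x.2)) (hTP y.2)))
    have h2 : (x : G) = (y : G) := congrArg (fun t : ↥M => (t : G)) hxy
    exact Subtype.ext h2
  -- Sylow
  have hTp : IsPGroup p ((Cfsg.FusionSystem.normalizerIn (P : Subgroup G) Q).subgroupOf M) :=
    (P.isPGroup'.to_le hTP).comap_subtype
  have hsyl : ∃ TL : Sylow p (↥M ⧸ O.subgroupOf M),
      (TL : Subgroup (↥M ⧸ O.subgroupOf M)) = ι.range := by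
    have hFN' : ¬ p ∣ ((Cfsg.FusionSystem.normalizerIn (P : Subgroup G) Q).subgroupOf M).index :=
      hFN
    refine ⟨(hTp.toSylow hFN').mapSurjective hπs, ?_⟩
    rw [Sylow.coe_mapSurjective, IsPGroup.toSylow_coe]
    ext y
    constructor
    · rintro ⟨x, hx, rfl⟩
      exact ⟨⟨x, Subgroup.mem_subgroupOf.1 hx⟩, hι _⟩
    · rintro ⟨x, rfl⟩
      exact ⟨⟨x, hTM x.2⟩, Subgroup.mem_subgroupOf.2 x.2, (hι x).symm⟩
  -- characteristic `p`
  have hQsn : (Q.subgroupOf M).Normal := by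
    rw [hM]; exact Subgroup.normal_in_normalizer
  have hQble : (Q.subgroupOf M).map π ≤ Cfsg.pCore p (↥M ⧸ O.subgroupOf M) :=
    le_sSup ⟨hQsn.map π hπs, (hQp.comap_subtype).map π⟩
  have hcent : centralizer ((Cfsg.pCore p (↥M ⧸ O.subgroupOf M) :
      Subgroup (↥M ⧸ O.subgroupOf M)) : Set (↥M ⧸ O.subgroupOf M)) ≤
      Cfsg.pCore p (↥M ⧸ O.subgroupOf M) := by
    intro l hl
    obtain ⟨n, rfl⟩ := hπs l
    have hnC : (n : G) ∈ centralizer (Q : Set G) := by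
      rw [Subgroup.mem_centralizer_iff]
      intro q hq
      have hqb : π ⟨q, hQM hq⟩ ∈ Cfsg.pCore p (↥M ⧸ O.subgroupOf M) :=
        hQble ⟨⟨q, hQM hq⟩, Subgroup.mem_subgroupOf.2 hq, rfl⟩
      have h1 := Subgroup.mem_centralizer_iff.1 hl _ hqb
      rw [← map_mul, ← map_mul] at h1
      have hel : ∃ k : ℕ, (((n * ⟨q, hQM hq⟩ : ↥M) : G)⁻¹ *
          ((⟨q, hQM hq⟩ * n : ↥M) : G)) ^ p ^ k = 1 := by
        apply hPel
        apply hQP
        have e : ((n * ⟨q, hQM hq⟩ : ↥M) : G)⁻¹ * ((⟨q, hQM hq⟩ * n : ↥M) : G) =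
            q⁻¹ * ((n : G)⁻¹ * q * (n : G)) := by
          push_cast
          group
        rw [e]
        exact Q.mul_mem (Q.inv_mem hq) (hMQ' _ n.2 q hq)
      have h3 := hinjP _ _ h1.symm hel
      exact (congrArg Subtype.val h3).symm
    obtain ⟨z, hz, o, ho, hzo⟩ := hCdec _ hnC
    have h4 : π n = π ⟨z, hQM hz⟩ := by
      have e : n = ⟨z, hQM hz⟩ * ⟨o, hOM ho⟩ := Subtype.ext hzo
      rw [e, map_mul, (hπker ⟨o, hOM ho⟩).2 ho, mul_one]
    rw [h4]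
    exact hQble ⟨⟨z, hQM hz⟩, Subgroup.mem_subgroupOf.2 hz, rfl⟩
  -- realization
  have hreal : ∀ (A : Subgroup G) (hA : A ≤ Cfsg.FusionSystem.normalizerIn (P : Subgroup G) Q)
      (φ : A →* G) (hφ : ∀ x : A, φ x ∈ Cfsg.FusionSystem.normalizerIn (P : Subgroup G) Q),
      φ ∈ Nsys.Hom A ↔ ∃ l : ↥M ⧸ O.subgroupOf M, ∀ x : A,
        ι ⟨φ x, hφ x⟩ = l * ι ⟨x, hA x.2⟩ * l⁻¹ := by
    intro A hA φ hφ
    constructor
    · intro hmem
      rw [hN A] at hmem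
      obtain ⟨-, -, -, ψ, hψ, hψφ, hψQ⟩ := hmem
      obtain ⟨-, -, g, hg⟩ := hψ
      have hgM : g ∈ M := by
        rw [hM]
        apply Helper84.mem_normalizer_of_finite_of_conj_mem
        intro q hq
        have h1 : ψ ⟨q, (le_sup_right : Q ≤ A ⊔ Q) hq⟩ ∈ (Q.subgroupOf (A ⊔ Q)).map ψ :=
          ⟨_, Subgroup.mem_subgroupOf.2 hq, rfl⟩
        rw [hψQ, hg] at h1
        exact h1
      refine ⟨π ⟨g, hgM⟩, fun x => ?_⟩
      have h2 : φ x = g * (x : G) * g⁻¹ := by rw [← hψφ x, hg]; rfl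
      rw [hι, hι, ← map_inv, ← map_mul, ← map_mul]
      congr 1
      exact Subtype.ext h2
    · rintro ⟨l, hl⟩
      obtain ⟨n, rfl⟩ := hπs l
      have hAM : A ≤ M := hA.trans hTM
      have hAp : IsPGroup p A := P.isPGroup'.to_le (hA.trans hTP)
      obtain ⟨φM, hφM⟩ : ∃ φM : ↥A →* ↥M, ∀ x : A, ((φM x : ↥M) : G) = φ x :=
        ⟨φ.codRestrict M (fun x => hTM (hφ x)), fun x => rfl⟩
      obtain ⟨cM, hcM⟩ : ∃ cM : ↥A →* ↥M, ∀ x : A, cM x = n * ⟨x, hAM x.2⟩ * n⁻¹ :=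
        ⟨(MulAut.conj n).toMonoidHom.comp (Subgroup.inclusion hAM), fun x => rfl⟩
      have hπeq' : ∀ x : A, π (φM x) = π (cM x) := by
        intro x
        have h1 := hl x
        rw [hι, hι] at h1
        rw [hcM, map_mul, map_mul, map_inv]
        have e1 : φM x = ⟨φ x, hTM (hφ x)⟩ := Subtype.ext (hφM x)
        rw [e1]
        exact h1
      obtain ⟨Y, hY⟩ : ∃ Y : Subgroup ↥M, Y = (φM.range.map π).comap π := ⟨_, rfl⟩
      have hYmem : ∀ y : ↥M, y ∈ Y ↔ ∃ b ∈ φM.range, π b = π y := by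
        intro y; rw [hY]; rfl
      have hBY : ∀ x : A, φM x ∈ Y := fun x => (hYmem _).2 ⟨φM x, ⟨x, rfl⟩, rfl⟩
      have hAY : ∀ x : A, cM x ∈ Y := fun x => (hYmem _).2 ⟨φM x, ⟨x, rfl⟩, hπeq' x⟩
      have hBp : IsPGroup p (φM.range.subgroupOf Y) :=
        (IsPGroup.of_surjective hAp φM.rangeRestrict φM.rangeRestrict_surjective).comap_subtype
      have hAp' : IsPGroup p (cM.range.subgroupOf Y) :=
        (IsPGroup.of_surjective hAp cM.rangeRestrict cM.rangeRestrict_surjective).comap_subtype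
      obtain ⟨SY, hSY⟩ := hBp.exists_le_sylow
      obtain ⟨y, hy⟩ := Helper34.exists_conj_le_of_index_coprime (SY : Subgroup ↥Y) SY.isPGroup'
        SY.not_dvd_index _ hAp'
      obtain ⟨b, ⟨xb, rfl⟩, hbπ⟩ := (hYmem (y : ↥M)).1 y.2
      have hkey : ∀ x : A,
          (φM xb)⁻¹ * ((y : ↥M) * cM x * (y : ↥M)⁻¹) * φM xb = φM x := by
        intro x
        have hb' : (⟨φM xb, hBY xb⟩ : ↥Y) ∈ SY := hSY (Subgroup.mem_subgroupOf.2 ⟨xb, rfl⟩)
        have hx' : (⟨φM x, hBY x⟩ : ↥Y) ∈ SY := hSY (Subgroup.mem_subgroupOf.2 ⟨x, rfl⟩)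
        have hc' : y * ⟨cM x, hAY x⟩ * y⁻¹ ∈ SY := hy _ (Subgroup.mem_subgroupOf.2 ⟨x, rfl⟩)
        have hs1 : (⟨φM xb, hBY xb⟩ : ↥Y)⁻¹ * (y * ⟨cM x, hAY x⟩ * y⁻¹) * ⟨φM xb, hBY xb⟩ ∈ SY :=
          SY.mul_mem (SY.mul_mem (SY.inv_mem hb') hc') hb'
        have hd : ((⟨φM xb, hBY xb⟩ : ↥Y)⁻¹ * (y * ⟨cM x, hAY x⟩ * y⁻¹) *
            ⟨φM xb, hBY xb⟩)⁻¹ * ⟨φM x, hBY x⟩ ∈ SY := SY.mul_mem (SY.inv_mem hs1) hx'
        obtain ⟨k, hk⟩ := SY.isPGroup' ⟨_, hd⟩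
        apply hinjP _ _ ?_ ⟨k, ?_⟩
        · rw [map_mul, map_mul, map_inv, map_mul, map_mul, map_inv, hbπ, ← hπeq' x]
          group
        · have h1 := congrArg Subtype.val hk
          rw [Subgroup.coe_pow] at h1
          have h2 := congrArg Subtype.val h1
          rw [Subgroup.coe_pow] at h2
          have h3 := congrArg Subtype.val h2
          rw [Subgroup.coe_pow] at h3
          exact h3
      obtain ⟨g, hg⟩ : ∃ g : ↥M, g = (φM xb)⁻¹ * (y : ↥M) * n := ⟨_, rfl⟩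
      have hgφ : ∀ x : A, φ x = (g : G) * (x : G) * (g : G)⁻¹ := by
        intro x
        have h1 := hkey x
        rw [hcM] at h1
        have h2 : g * ⟨x, hAM x.2⟩ * g⁻¹ = φM x := by
          rw [hg, ← h1]; group
        rw [← hφM x, ← h2]
        rfl
      rw [hN A]
      refine ⟨⟨hA.trans hTP, fun x => hTP (hφ x), g, hgφ⟩, hA, hφ,
        Cfsg.conjHom (A ⊔ Q) (g : G), ⟨sup_le (hA.trans hTP) hQP, ?_, g, fun y => rfl⟩, ?_, ?_⟩
      · intro y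
        have hle : A ⊔ Q ≤ (P : Subgroup G).comap (MulAut.conj (g : G)).toMonoidHom := by
          apply sup_le
          · intro a ha
            show (g : G) * a * (g : G)⁻¹ ∈ (P : Subgroup G)
            rw [← hgφ ⟨a, ha⟩]
            exact hTP (hφ _)
          · intro q hq
            exact hQP (hMQ _ g.2 q hq)
        exact hle y.2
      · intro x
        show (g : G) * (x : G) * (g : G)⁻¹ = φ x
        exact (hgφ x).symm
      · rw [Helper87.map_subgroupOf_eq_iff le_sup_right]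
        refine ⟨fun q hq => hMQ _ g.2 q hq, fun q hq =>
          ⟨(g : G)⁻¹ * q * (g : G), hMQ' _ g.2 q hq, ?_⟩⟩
        show (g : G) * ((g : G)⁻¹ * q * (g : G)) * (g : G)⁻¹ = q
        group
  refine ⟨↥M ⧸ O.subgroupOf M, inferInstance, ι, π,
    ⟨inferInstance, ⟨hinj, hreal⟩, hsyl, hcent⟩, ?_⟩
  intro n hn hnQ
  exact Subtype.ext (hOtriv _ ((hπker n).1 hn) (hPel _ (hQP hnQ)))

end Cfsg.Agent.Lib.Helper38.QdModel
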