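import Mathlib
import Cfsg.Prelude.Def_FusionSystem
import Cfsg.Prelude.Def_FusionReduction
import Cfsg.Agent.Lib.Helper38.QdModel
import Cfsg.Agent.Lib.Helper85.Realized
import Cfsg.Agent.Lib.Helper85.GroupFusion

/-!
# `F_P(G)` is `Qd(p)`-free iff `G` is `Qd(p)`-free (`p` odd)
-/

set_option autoImplicit false

namespace Cfsg.Agent.Lib.Helper38.QdFree

open Cfsg Cfsg.Agent.Lib Subgroup
open Cfsg.Agent.Lib.Helper38.QdLocal Cfsg.Agent.Lib.Helper38.QdBad Cfsg.Agent.Lib.Helper38.QdModel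

universe u

/-- A datum in a group `L` realizing fusion on (the image of) `S ≤ G` pulls back to `G`. -/
theorem datum_pullback {G L : Type*} [Group G] [Group L] [Finite L] {p : ℕ} [Fact p.Prime]
    (S : Subgroup G) (ι : ↥S →* L) (hinj : Function.Injective ι)
    (hT : ∃ T : Sylow p L, (T : Subgroup L) = ι.range)
    (hreal : ∀ (A : Subgroup G) (hA : A ≤ S) (l : L),
      (∀ a : A, l * ι ⟨a, hA a.2⟩ * l⁻¹ ∈ ι.range) →
       ∃ g : G, ∀ a : A, ∃ h : g * (a : G) * g⁻¹ ∈ S,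
         ι ⟨g * (a : G) * g⁻¹, h⟩ = l * ι ⟨a, hA a.2⟩ * l⁻¹)
    (hd : QdDatum p L) : QdDatum p G := by
  obtain ⟨U, f, hU, hf, hm⟩ := hd
  obtain ⟨T, hT⟩ := hT
  obtain ⟨l0, hl0⟩ := Helper34.exists_conj_le_of_index_coprime (T : Subgroup L) T.isPGroup'
    T.not_dvd_index U hU
  have hl0' : ∀ u : U, l0 * (u : L) * l0⁻¹ ∈ ι.range := fun u => by
    rw [← hT]; exact hl0 u u.2
  obtain ⟨j, hjS, hj⟩ : ∃ j : ↥U →* G, ∃ hjS : ∀ u : U, j u ∈ S,
      ∀ u : U, ι ⟨j u, hjS u⟩ = l0 * (u : L) * l0⁻¹ := by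
    let e := MonoidHom.ofInjective hinj
    let c : ↥U →* ↥ι.range :=
      ((MulAut.conj l0).toMonoidHom.comp U.subtype).codRestrict ι.range hl0'
    refine ⟨S.subtype.comp (e.symm.toMonoidHom.comp c), fun u => (e.symm (c u)).2, fun u => ?_⟩
    have h1 : ((e (e.symm (c u)) : ↥ι.range) : L) = ι (e.symm (c u)) := rfl
    show ι (e.symm (c u)) = _
    rw [← h1, MulEquiv.apply_symm_apply]
    rfl
  refine datum_of_hom j hU f hf ?_ ?_
  · intro u hu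
    rw [MonoidHom.mem_ker] at hu ⊢
    have h1 := hj u
    have h2 : (⟨j u, hjS u⟩ : ↥S) = 1 := Subtype.ext hu
    rw [h2, map_one] at h1
    have h3 : (u : L) = 1 := by
      have : (u : L) = l0⁻¹ * (l0 * (u : L) * l0⁻¹) * l0 := by group
      rw [this, ← h1]
      group
    have h4 : u = 1 := Subtype.ext h3
    rw [h4, map_one]
  · intro m
    obtain ⟨k, hk⟩ := hm m
    have hA : j.range ≤ S := by
      rintro _ ⟨u, rfl⟩; exact hjS u
    have hcond : ∀ a : ↥j.range,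
        (l0 * k * l0⁻¹) * ι ⟨a, hA a.2⟩ * (l0 * k * l0⁻¹)⁻¹ ∈ ι.range := by
      rintro ⟨_, u, rfl⟩
      obtain ⟨hku, -⟩ := hk u
      have h2 : ι ⟨j u, hA ⟨u, rfl⟩⟩ = l0 * (u : L) * l0⁻¹ := hj u
      rw [h2]
      have h3 := hl0' ⟨k * (u : L) * k⁻¹, hku⟩
      have e : l0 * k * l0⁻¹ * (l0 * (u : L) * l0⁻¹) * (l0 * k * l0⁻¹)⁻¹ =
          l0 * (k * (u : L) * k⁻¹) * l0⁻¹ := by group
      rw [e]
      exact h3
    obtain ⟨g, hg⟩ := hreal j.range hA (l0 * k * l0⁻¹) hcond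
    refine ⟨g, fun u => ?_⟩
    obtain ⟨hku, hfu⟩ := hk u
    refine ⟨⟨k * (u : L) * k⁻¹, hku⟩, ?_, hfu⟩
    obtain ⟨hgS, hgι⟩ := hg ⟨j u, ⟨u, rfl⟩⟩
    have h1 : ι ⟨j ⟨k * (u : L) * k⁻¹, hku⟩, hjS _⟩ = ι ⟨g * j u * g⁻¹, hgS⟩ := by
      rw [hgι, hj]
      have h2 : ι ⟨j u, hA ⟨u, rfl⟩⟩ = l0 * (u : L) * l0⁻¹ := hj u
      rw [h2]
      show l0 * (k * (u : L) * k⁻¹) * l0⁻¹ = _
      group
    exact congrArg Subtype.val (hinj h1)

/-- `G` is `Qd(p)`-free ⟹ `F_P(G)` is `Qd(p)`-free. -/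
theorem sectionFree_of_not_involves {G : Type u} [Group G] [Finite G] {p : ℕ} [Fact p.Prime]
    (hp : p ≠ 2) (P : Sylow p G) (hqd : ¬ Cfsg.Involves ↥(Cfsg.qd p) G) :
    (Cfsg.groupFusionSystem (P : Subgroup G)).IsSectionFree p ↥(Cfsg.qd p) := by
  intro Q hFN hCen Nsys hN L _ ι hmodel hinv
  obtain ⟨hfin, ⟨hinj, hreal⟩, hT, hcent⟩ := hmodel
  apply hqd
  apply involves_of_datum hp
  apply datum_pullback (Cfsg.FusionSystem.normalizerIn (P : Subgroup G) Q) ι hinj hT ?_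
    (datum_of_involves hinv)
  intro A hA l hl
  obtain ⟨ψ, hψN, hψ⟩ := Helper85.exists_lift_conj hinj hA l hl
  have hψmem : ψ ∈ Nsys.Hom A := (hreal A hA ψ hψN).2 ⟨l, hψ⟩
  rw [hN A] at hψmem
  obtain ⟨hF, -⟩ := hψmem
  obtain ⟨-, -, g, hg⟩ := hF
  refine ⟨g, fun a => ?_⟩
  have hmem : g * (a : G) * g⁻¹ ∈ Cfsg.FusionSystem.normalizerIn (P : Subgroup G) Q := by
    rw [← hg a]; exact hψN a
  refine ⟨hmem, ?_⟩
  have e : (⟨g * (a : G) * g⁻¹, hmem⟩ : ↥(Cfsg.FusionSystem.normalizerIn (P : Subgroup G) Q)) =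
      ⟨ψ a, hψN a⟩ := Subtype.ext (hg a).symm
  rw [e]
  exact hψ a

/-- `F_P(G)` is `Qd(p)`-free ⟹ `G` is `Qd(p)`-free. -/
theorem not_involves_of_sectionFree {G : Type u} [Group G] [Finite G] {p : ℕ} [Fact p.Prime]
    (hp : p ≠ 2) (P : Sylow p G)
    (hfree : (Cfsg.groupFusionSystem (P : Subgroup G)).IsSectionFree p ↥(Cfsg.qd p)) :
    ¬ Cfsg.Involves ↥(Cfsg.qd p) G := by
  intro hinv
  obtain ⟨Q, hbad, hmax, hQP, hsyl⟩ := exists_bad_max (datum_of_involves hinv) P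
  have hcen := bad_max_centric hbad hmax
  have hFN : (Cfsg.groupFusionSystem (P : Subgroup G)).IsFullyNormalized Q := by
    rw [Helper85.groupFusionSystem_eq,
      Helper85.rel_fullyNormalized_iff le_top (Helper85.isSylIn_of_sylow P le_top) hQP]
    have e : Cfsg.FusionSystem.normalizerIn (⊤ : Subgroup G) Q = normalizer (Q : Set G) :=
      top_inf_eq _
    rw [e]
    have hTp : IsPGroup p ((Cfsg.FusionSystem.normalizerIn (P : Subgroup G) Q).subgroupOf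
        (normalizer (Q : Set G))) := (P.isPGroup'.to_le inf_le_left).comap_subtype
    have hidx : ¬ p ∣ ((Cfsg.FusionSystem.normalizerIn (P : Subgroup G) Q).subgroupOf
        (normalizer (Q : Set G))).index := hsyl
    exact ⟨hTp.toSylow hidx, IsPGroup.toSylow_coe hTp hidx⟩
  have hCen : (Cfsg.groupFusionSystem (P : Subgroup G)).IsCentric Q := by
    refine ⟨hQP, fun Q' hQ' => ?_⟩
    obtain ⟨φ, hφ, rfl⟩ := hQ'
    obtain ⟨-, -, g, hg⟩ := hφ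
    intro y hy
    obtain ⟨hyP, hyC⟩ := hy
    have hx : g⁻¹ * y * g ∈ centralizer (Q : Set G) := by
      rw [Subgroup.mem_centralizer_iff]
      intro q hq
      have h1 := Subgroup.mem_centralizer_iff.1 hyC (φ ⟨q, hq⟩) ⟨⟨q, hq⟩, rfl⟩
      rw [hg] at h1
      calc q * (g⁻¹ * y * g) = g⁻¹ * ((g * q * g⁻¹) * y) * g := by group
        _ = g⁻¹ * (y * (g * q * g⁻¹)) * g := by rw [h1]
        _ = g⁻¹ * y * g * q := by group
    obtain ⟨k, hk⟩ := P.isPGroup' ⟨y, hyP⟩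
    have hyk : y ^ p ^ k = 1 := by
      have := congrArg Subtype.val hk
      rw [Subgroup.coe_pow] at this
      exact this
    have hxk : (g⁻¹ * y * g) ^ p ^ k = 1 := by
      have : g⁻¹ * y * g = g⁻¹ * y * g⁻¹⁻¹ := by rw [inv_inv]
      rw [this, conj_pow, hyk, mul_one, mul_inv_cancel]
    have hxQ := hcen _ hx ⟨k, hxk⟩
    refine ⟨⟨g⁻¹ * y * g, hxQ⟩, ?_⟩
    rw [hg]
    show g * (g⁻¹ * y * g) * g⁻¹ = y
    group
  obtain ⟨Nsys, hN⟩ : ∃ Nsys : Cfsg.FusionSystem (Cfsg.FusionSystem.normalizerIn (P : Subgroup G) Q),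
      (Cfsg.groupFusionSystem (P : Subgroup G)).IsNormalizerSystem Q Nsys :=
    ⟨_, Helper87.isNormalizerSystem_normSystem _ Q hQP⟩
  obtain ⟨L, instL, ι, π, hmodel, hπQ⟩ := exists_model P Q hQP hsyl hcen Nsys hN
  have hfin : Finite L := hmodel.1
  apply hfree Q hFN hCen Nsys hN L ι hmodel
  apply involves_of_datum hp
  obtain ⟨hQp, U, f, hUQ, hf, hm⟩ := hbad
  have hUM : U ≤ normalizer (Q : Set G) := hUQ.trans Subgroup.le_normalizer
  refine datum_of_hom (π.comp (Subgroup.inclusion hUM)) (hQp.to_le hUQ) f hf ?_ ?_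
  · intro u hu
    rw [MonoidHom.mem_ker] at hu ⊢
    have h1 := hπQ ⟨u, hUM u.2⟩ hu (hUQ u.2)
    have h2 : u = 1 := Subtype.ext (congrArg (fun t : ↥(normalizer (Q : Set G)) => (t : G)) h1)
    rw [h2, map_one]
  · intro m
    obtain ⟨g, hgQ, hg⟩ := hm m
    refine ⟨π ⟨g, hgQ⟩, fun u => ?_⟩
    obtain ⟨h, hfu⟩ := hg u
    refine ⟨⟨g * (u : G) * g⁻¹, h⟩, ?_, hfu⟩
    show π ⟨g * (u : G) * g⁻¹, _⟩ = π ⟨g, hgQ⟩ * π ⟨u, _⟩ * (π ⟨g, hgQ⟩)⁻¹
    rw [← map_inv, ← map_mul, ← map_mul]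
    rfl

end Cfsg.Agent.Lib.Helper38.QdFree
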