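import Mathlib
import Cfsg.Agent.S4210

set_option autoImplicit false
open Cfsg
open scoped commutatorElement

namespace Cfsg.Agent.Lib.Helper38.Regular

variable {G : Type*} [Group G]

/-- Weak first-power regularity: `(ab)^p = a^p b^p c` with `c` a product of `p`-th powers of
elements of the derived subgroup of `⟨a, b⟩`. -/
def Reg1 (p : ℕ) (G : Type*) [Group G] : Prop :=
  ∀ a b : G, ∃ c ∈ Cfsg.powerClosure p 1
      ⁅Subgroup.closure ({a, b} : Set G), Subgroup.closure ({a, b} : Set G)⁆,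
    (a * b) ^ p = a ^ p * b ^ p * c

theorem reg1_of_regular {p : ℕ} (hG : Cfsg.IsRegularPGroup p G) : Reg1 p G := by
  intro a b
  obtain ⟨c, hc, h⟩ := hG.2 a b 1
  exact ⟨c, hc, by simpa using h⟩

theorem mem_powSet_of_mem_closure (K : Subgroup G) (m : ℕ)
    (h : ∀ x ∈ K, ∀ y ∈ K, ∃ z ∈ K, x ^ m * y ^ m = z ^ m) :
    ∀ g ∈ Subgroup.closure {y : G | ∃ x ∈ K, y = x ^ m}, ∃ x ∈ K, g = x ^ m := by
  intro g hg
  induction hg using Subgroup.closure_induction with
  | mem y hy => exact hy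
  | one => exact ⟨1, K.one_mem, (one_pow m).symm⟩
  | mul a b _ _ ha hb =>
    obtain ⟨x, hx, rfl⟩ := ha
    obtain ⟨y, hy, rfl⟩ := hb
    obtain ⟨z, hz, e⟩ := h x hx y hy
    exact ⟨z, hz, e⟩
  | inv a _ ha =>
    obtain ⟨x, hx, rfl⟩ := ha
    exact ⟨x⁻¹, K.inv_mem hx, (inv_pow x m).symm⟩

theorem powerClosure_mono (p n : ℕ) {H K : Subgroup G} (h : H ≤ K) :
    Cfsg.powerClosure p n H ≤ Cfsg.powerClosure p n K := by
  unfold Cfsg.powerClosure
  apply Subgroup.closure_mono
  rintro z ⟨w, hw, rfl⟩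
  exact ⟨w, h hw, rfl⟩

theorem powerClosure_le (p n : ℕ) (H : Subgroup G) : Cfsg.powerClosure p n H ≤ H := by
  unfold Cfsg.powerClosure
  rw [Subgroup.closure_le]
  rintro z ⟨w, hw, rfl⟩
  exact H.pow_mem hw _

theorem closure_pair_le {K : Subgroup G} {x y : G} (hx : x ∈ K) (hy : y ∈ K) :
    Subgroup.closure ({x, y} : Set G) ≤ K := by
  rw [Subgroup.closure_le]
  rintro z (rfl | rfl)
  · exact hx
  · exact hy

theorem comm_le_self (K : Subgroup G) : ⁅K, K⁆ ≤ K := by
  rw [Subgroup.commutator_le]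
  intro a ha b hb
  rw [commutatorElement_def]
  exact mul_mem (mul_mem (mul_mem ha hb) (inv_mem ha)) (inv_mem hb)

theorem comm_closure_le_normal (N : Subgroup G) [N.Normal] (u v : G) (h : ⁅u, v⁆ ∈ N) :
    ⁅Subgroup.closure ({u, v} : Set G), Subgroup.closure ({u, v} : Set G)⁆ ≤ N := by
  apply Cfsg.Agent.S4210.comm_closure_le N u v
  · rw [Subgroup.normalizer_eq_top]; exact Subgroup.mem_top _
  · rw [Subgroup.normalizer_eq_top]; exact Subgroup.mem_top _
  · rwa [commutatorElement_def] at h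

/-- `L1`: in a finite `p`-group with weak first-power regularity, a product of two `p`-th powers is a
`p`-th power of an element of the subgroup they generate. -/
theorem pow_mul_pow_one [Finite G] {p : ℕ} [Fact p.Prime] (hG : IsPGroup p G) (h1 : Reg1 p G) :
    ∀ x y : G, ∃ z ∈ Subgroup.closure ({x, y} : Set G), x ^ p * y ^ p = z ^ p := by
  obtain ⟨n, hn⟩ := Subgroup.nilpotent_iff_lowerCentralSeries.mp hG.isNilpotent
  have key : ∀ k : ℕ, ∀ x y : G, ⁅x, y⁆ ∈ (⊤ : Subgroup G).lowerCentralSeries (n - k) →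
      ∃ z ∈ Subgroup.closure ({x, y} : Set G), x ^ p * y ^ p = z ^ p := by
    intro k
    induction k with
    | zero =>
      intro x y hxy
      rw [Nat.sub_zero, hn, Subgroup.mem_bot, commutatorElement_eq_one_iff_commute] at hxy
      refine ⟨x * y, ?_, (hxy.mul_pow p).symm⟩
      exact mul_mem (Subgroup.subset_closure (by simp)) (Subgroup.subset_closure (by simp))
    | succ k ih =>
      intro x y hxy
      by_cases hk : k < n
      · have e : n - k = (n - (k + 1)) + 1 := by omega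
        have hD : ⁅Subgroup.closure ({x, y} : Set G), Subgroup.closure ({x, y} : Set G)⁆ ≤
            (⊤ : Subgroup G).lowerCentralSeries (n - (k + 1)) := comm_closure_le_normal _ x y hxy
        obtain ⟨c₀, hc₀, hc⟩ := h1 x y
        have habs : ∀ c ∈ Cfsg.powerClosure p 1
            ⁅Subgroup.closure ({x, y} : Set G), Subgroup.closure ({x, y} : Set G)⁆,
            ∀ w ∈ Subgroup.closure ({x, y} : Set G),
              ∃ z ∈ Subgroup.closure ({x, y} : Set G), w ^ p * c = z ^ p := by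
          have hgen : ∀ d ∈ ⁅Subgroup.closure ({x, y} : Set G), Subgroup.closure ({x, y} : Set G)⁆,
              ∀ w ∈ Subgroup.closure ({x, y} : Set G),
              ∃ z ∈ Subgroup.closure ({x, y} : Set G), w ^ p * d ^ p = z ^ p := by
            intro d hd w hw
            have hwd : ⁅w, d⁆ ∈ (⊤ : Subgroup G).lowerCentralSeries (n - k) := by
              rw [e, Subgroup.lowerCentralSeries_succ]
              have := Subgroup.commutator_mem_commutator (hD hd) (Subgroup.mem_top w)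
              rw [← commutatorElement_inv]
              exact inv_mem this
            obtain ⟨z, hz, hzz⟩ := ih w d hwd
            exact ⟨z, closure_pair_le hw (comm_le_self _ hd) hz, hzz⟩
          intro c hc
          unfold Cfsg.powerClosure at hc
          induction hc using Subgroup.closure_induction'' with
          | mem g hg =>
            obtain ⟨d, hd, rfl⟩ := hg
            intro w hw
            rw [pow_one]
            exact hgen d hd w hw
          | inv_mem g hg =>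
            obtain ⟨d, hd, rfl⟩ := hg
            intro w hw
            rw [pow_one, ← inv_pow]
            exact hgen d⁻¹ (inv_mem hd) w hw
          | one => intro w hw; exact ⟨w, hw, mul_one _⟩
          | mul a b _ _ ha hb =>
            intro w hw
            obtain ⟨z₁, hz₁, e₁⟩ := ha w hw
            obtain ⟨z₂, hz₂, e₂⟩ := hb z₁ hz₁
            exact ⟨z₂, hz₂, by rw [← mul_assoc, e₁, e₂]⟩
        have hxyK : x * y ∈ Subgroup.closure ({x, y} : Set G) :=
          mul_mem (Subgroup.subset_closure (by simp)) (Subgroup.subset_closure (by simp))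
        obtain ⟨z, hz, hzz⟩ := habs c₀⁻¹ (inv_mem hc₀) (x * y) hxyK
        refine ⟨z, hz, ?_⟩
        rw [← hzz, hc]; group
      · have e : n - (k + 1) = n - k := by omega
        rw [e] at hxy
        exact ih x y hxy
  intro x y
  exact key n x y (by rw [Nat.sub_self]; exact Subgroup.mem_top _)

/-- `L_n`: a product of two `p^n`-th powers is a `p^n`-th power. -/
theorem pow_mul_pow [Finite G] {p : ℕ} [Fact p.Prime] (hG : IsPGroup p G) (h1 : Reg1 p G) (n : ℕ) :
    ∀ x y : G, ∃ z ∈ Subgroup.closure ({x, y} : Set G),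
      x ^ (p ^ n) * y ^ (p ^ n) = z ^ (p ^ n) := by
  induction n with
  | zero =>
    intro x y
    exact ⟨x * y, mul_mem (Subgroup.subset_closure (by simp)) (Subgroup.subset_closure (by simp)),
      by simp⟩
  | succ n ih =>
    intro x y
    obtain ⟨w, hw, hww⟩ := pow_mul_pow_one hG h1 (x ^ (p ^ n)) (y ^ (p ^ n))
    have hsub : Subgroup.closure ({x ^ (p ^ n), y ^ (p ^ n)} : Set G) ≤
        Cfsg.powerClosure p n (Subgroup.closure ({x, y} : Set G)) := by
      apply closure_pair_le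
      · exact Subgroup.subset_closure ⟨x, Subgroup.subset_closure (by simp), rfl⟩
      · exact Subgroup.subset_closure ⟨y, Subgroup.subset_closure (by simp), rfl⟩
    obtain ⟨u, hu, rfl⟩ := mem_powSet_of_mem_closure (Subgroup.closure ({x, y} : Set G)) (p ^ n)
      (fun a ha b hb => by
        obtain ⟨z, hz, e⟩ := ih a b
        exact ⟨z, closure_pair_le ha hb hz, e⟩) w (hsub hw)
    refine ⟨u, hu, ?_⟩
    rw [pow_succ, pow_mul, pow_mul, pow_mul, hww]

theorem mem_powerClosure_iff [Finite G] {p : ℕ} [Fact p.Prime] (hG : IsPGroup p G) (h1 : Reg1 p G)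
    (n : ℕ) (K : Subgroup G) (g : G) :
    g ∈ Cfsg.powerClosure p n K ↔ ∃ x ∈ K, g = x ^ (p ^ n) := by
  constructor
  · intro hg
    exact mem_powSet_of_mem_closure K (p ^ n) (fun a ha b hb => by
        obtain ⟨z, hz, e⟩ := pow_mul_pow hG h1 n a b
        exact ⟨z, closure_pair_le ha hb hz, e⟩) g hg
  · intro h
    exact Subgroup.subset_closure h

theorem conj_mem_powerClosure (p n : ℕ) (D : Subgroup G) (g : G)
    (hg : ∀ d ∈ D, g * d * g⁻¹ ∈ D) :
    ∀ h ∈ Cfsg.powerClosure p n D, g * h * g⁻¹ ∈ Cfsg.powerClosure p n D := by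
  intro h hh
  unfold Cfsg.powerClosure at hh ⊢
  induction hh using Subgroup.closure_induction with
  | mem y hy =>
    obtain ⟨x, hx, rfl⟩ := hy
    exact Subgroup.subset_closure ⟨g * x * g⁻¹, hg x hx, conj_pow.symm⟩
  | one => simp
  | mul a b _ _ ha hb =>
    have : g * (a * b) * g⁻¹ = (g * a * g⁻¹) * (g * b * g⁻¹) := by group
    rw [this]; exact mul_mem ha hb
  | inv a _ ha =>
    have : g * a⁻¹ * g⁻¹ = (g * a * g⁻¹)⁻¹ := by group
    rw [this]; exact inv_mem ha

theorem mem_normalizer_powerClosure (p n : ℕ) (K : Subgroup G) {g : G} (hg : g ∈ K) :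
    g ∈ Subgroup.normalizer ((Cfsg.powerClosure p n ⁅K, K⁆ : Subgroup G) : Set G) := by
  have hconj : ∀ k ∈ K, ∀ d ∈ ⁅K, K⁆, k * d * k⁻¹ ∈ ⁅K, K⁆ := by
    intro k hk d hd
    have : k * d * k⁻¹ = ⁅k, d⁆ * d := by rw [commutatorElement_def]; group
    rw [this]
    exact mul_mem (Subgroup.commutator_mem_commutator hk (comm_le_self K hd)) hd
  rw [Subgroup.mem_normalizer_iff]
  intro h
  constructor
  · exact conj_mem_powerClosure p n _ g (hconj g hg) h
  · intro hh
    have := conj_mem_powerClosure p n _ g⁻¹ (hconj g⁻¹ (inv_mem hg)) _ hh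
    simpa [mul_assoc] using this

/-- `A_1`. -/
theorem comm_pow_one [Finite G] {p : ℕ} [Fact p.Prime] (hG : IsPGroup p G) (h1 : Reg1 p G)
    (a v : G) :
    ∃ t ∈ ⁅Subgroup.closure ({a, v} : Set G), Subgroup.closure ({a, v} : Set G)⁆,
      a ^ p * v * (a ^ p)⁻¹ * v⁻¹ = t ^ p := by
  have haK : a ∈ Subgroup.closure ({a, v} : Set G) := Subgroup.subset_closure (by simp)
  have hvK : v ∈ Subgroup.closure ({a, v} : Set G) := Subgroup.subset_closure (by simp)
  obtain ⟨c₀, hc₀, hc⟩ := h1 a (v * a⁻¹ * v⁻¹)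
  have hsub : Subgroup.closure ({a, v * a⁻¹ * v⁻¹} : Set G) ≤ Subgroup.closure ({a, v} : Set G) :=
    closure_pair_le haK (mul_mem (mul_mem hvK (inv_mem haK)) (inv_mem hvK))
  have hc₀' := powerClosure_mono p 1 (Subgroup.commutator_mono hsub hsub) hc₀
  have hcomm : ⁅a, v⁆ ∈ ⁅Subgroup.closure ({a, v} : Set G), Subgroup.closure ({a, v} : Set G)⁆ :=
    Subgroup.commutator_mem_commutator haK hvK
  have hmem : a ^ p * v * (a ^ p)⁻¹ * v⁻¹ ∈ Cfsg.powerClosure p 1
      ⁅Subgroup.closure ({a, v} : Set G), Subgroup.closure ({a, v} : Set G)⁆ := by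
    have e : a ^ p * v * (a ^ p)⁻¹ * v⁻¹ = ⁅a, v⁆ ^ p * c₀⁻¹ := by
      have e1 : a * (v * a⁻¹ * v⁻¹) = ⁅a, v⁆ := by rw [commutatorElement_def]; group
      have e2 : (v * a⁻¹ * v⁻¹) ^ p = v * (a ^ p)⁻¹ * v⁻¹ := by rw [conj_pow, inv_pow]
      rw [e1, e2] at hc
      rw [hc]; group
    rw [e]
    exact mul_mem (Subgroup.subset_closure ⟨⁅a, v⁆, hcomm, by rw [pow_one]⟩) (inv_mem hc₀')
  obtain ⟨t, ht, e⟩ := (mem_powerClosure_iff hG h1 1 _ _).mp hmem
  exact ⟨t, ht, by rw [e, pow_one]⟩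

/-- `A_n`: `[u^(p^n), v]` is a `p^n`-th power of an element of `⟨u, v⟩'`. -/
theorem comm_pow [Finite G] {p : ℕ} [Fact p.Prime] (hG : IsPGroup p G) (h1 : Reg1 p G) (n : ℕ) :
    ∀ u v : G, ∃ t ∈ ⁅Subgroup.closure ({u, v} : Set G), Subgroup.closure ({u, v} : Set G)⁆,
      u ^ (p ^ n) * v * (u ^ (p ^ n))⁻¹ * v⁻¹ = t ^ (p ^ n) := by
  induction n with
  | zero =>
    intro u v
    refine ⟨⁅u, v⁆, Subgroup.commutator_mem_commutator (Subgroup.subset_closure (by simp))
      (Subgroup.subset_closure (by simp)), ?_⟩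
    simp [commutatorElement_def]
  | succ n ih =>
    intro u v
    have huK : u ∈ Subgroup.closure ({u, v} : Set G) := Subgroup.subset_closure (by simp)
    have hvK : v ∈ Subgroup.closure ({u, v} : Set G) := Subgroup.subset_closure (by simp)
    obtain ⟨s, hs, hss⟩ := comm_pow_one hG h1 (u ^ (p ^ n)) v
    obtain ⟨t₀, ht₀, e₀⟩ := ih u v
    have hle : ⁅Subgroup.closure ({u ^ (p ^ n), v} : Set G),
        Subgroup.closure ({u ^ (p ^ n), v} : Set G)⁆ ≤
        Cfsg.powerClosure p n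
          ⁅Subgroup.closure ({u, v} : Set G), Subgroup.closure ({u, v} : Set G)⁆ := by
      apply Cfsg.Agent.S4210.comm_closure_le
      · exact mem_normalizer_powerClosure p n _ (Subgroup.pow_mem _ huK _)
      · exact mem_normalizer_powerClosure p n _ hvK
      · rw [e₀]; exact Subgroup.subset_closure ⟨t₀, ht₀, rfl⟩
    obtain ⟨t, ht, rfl⟩ := (mem_powerClosure_iff hG h1 n _ s).mp (hle hs)
    refine ⟨t, ht, ?_⟩
    rw [pow_succ, pow_mul, hss, pow_mul]

theorem reg1_strong [Finite G] {p : ℕ} [Fact p.Prime] (hG : IsPGroup p G) (h1 : Reg1 p G)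
    (a b : G) :
    ∃ c ∈ ⁅Subgroup.closure ({a, b} : Set G), Subgroup.closure ({a, b} : Set G)⁆,
      (a * b) ^ p = a ^ p * b ^ p * c ^ p := by
  obtain ⟨c₀, hc₀, hc⟩ := h1 a b
  obtain ⟨c, hcm, rfl⟩ := (mem_powerClosure_iff hG h1 1 _ c₀).mp hc₀
  exact ⟨c, hcm, by rw [hc, pow_one]⟩

/-- `R_n`: the regular identity for all `n`, with a single `p^n`-th power. -/
theorem mul_pow_regular [Finite G] {p : ℕ} [Fact p.Prime] (hG : IsPGroup p G) (h1 : Reg1 p G)
    (n : ℕ) :
    ∀ a b : G, ∃ c ∈ ⁅Subgroup.closure ({a, b} : Set G), Subgroup.closure ({a, b} : Set G)⁆,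
      (a * b) ^ (p ^ n) = a ^ (p ^ n) * b ^ (p ^ n) * c ^ (p ^ n) := by
  induction n with
  | zero => intro a b; exact ⟨1, one_mem _, by simp⟩
  | succ n ih =>
    intro a b
    have haH : a ∈ Subgroup.closure ({a, b} : Set G) := Subgroup.subset_closure (by simp)
    have hbH : b ∈ Subgroup.closure ({a, b} : Set G) := Subgroup.subset_closure (by simp)
    obtain ⟨c, hc, hab⟩ := ih a b
    have hcH : c ∈ Subgroup.closure ({a, b} : Set G) := comm_le_self _ hc
    have huH : a ^ (p ^ n) ∈ Subgroup.closure ({a, b} : Set G) := Subgroup.pow_mem _ haH _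
    have hvH : b ^ (p ^ n) ∈ Subgroup.closure ({a, b} : Set G) := Subgroup.pow_mem _ hbH _
    have hwH : c ^ (p ^ n) ∈ Subgroup.closure ({a, b} : Set G) := Subgroup.pow_mem _ hcH _
    obtain ⟨d₁, hd₁, e₁⟩ := reg1_strong hG h1 (a ^ (p ^ n) * b ^ (p ^ n)) (c ^ (p ^ n))
    obtain ⟨d₂, hd₂, e₂⟩ := reg1_strong hG h1 (a ^ (p ^ n)) (b ^ (p ^ n))
    have hN₂ : ⁅Subgroup.closure ({a ^ (p ^ n), b ^ (p ^ n)} : Set G),
        Subgroup.closure ({a ^ (p ^ n), b ^ (p ^ n)} : Set G)⁆ ≤
        Cfsg.powerClosure p n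
          ⁅Subgroup.closure ({a, b} : Set G), Subgroup.closure ({a, b} : Set G)⁆ := by
      apply Cfsg.Agent.S4210.comm_closure_le
      · exact mem_normalizer_powerClosure p n _ huH
      · exact mem_normalizer_powerClosure p n _ hvH
      · obtain ⟨t, ht, e⟩ := comm_pow hG h1 n a (b ^ (p ^ n))
        rw [e]
        exact Subgroup.subset_closure ⟨t, Subgroup.commutator_mono (closure_pair_le haH hvH)
          (closure_pair_le haH hvH) ht, rfl⟩
    have hN₁ : ⁅Subgroup.closure ({a ^ (p ^ n) * b ^ (p ^ n), c ^ (p ^ n)} : Set G),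
        Subgroup.closure ({a ^ (p ^ n) * b ^ (p ^ n), c ^ (p ^ n)} : Set G)⁆ ≤
        Cfsg.powerClosure p n
          ⁅Subgroup.closure ({a, b} : Set G), Subgroup.closure ({a, b} : Set G)⁆ := by
      apply Cfsg.Agent.S4210.comm_closure_le
      · exact mem_normalizer_powerClosure p n _ (mul_mem huH hvH)
      · exact mem_normalizer_powerClosure p n _ hwH
      · obtain ⟨t, ht, e⟩ := comm_pow hG h1 n c (a ^ (p ^ n) * b ^ (p ^ n))
        have e' : a ^ (p ^ n) * b ^ (p ^ n) * c ^ (p ^ n) * (a ^ (p ^ n) * b ^ (p ^ n))⁻¹ *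
            (c ^ (p ^ n))⁻¹ = (c ^ (p ^ n) * (a ^ (p ^ n) * b ^ (p ^ n)) * (c ^ (p ^ n))⁻¹ *
            (a ^ (p ^ n) * b ^ (p ^ n))⁻¹)⁻¹ := by group
        rw [e', e]
        exact inv_mem (Subgroup.subset_closure ⟨t, Subgroup.commutator_mono
          (closure_pair_le hcH (mul_mem huH hvH)) (closure_pair_le hcH (mul_mem huH hvH)) ht, rfl⟩)
    obtain ⟨t₁, ht₁, rfl⟩ := (mem_powerClosure_iff hG h1 n _ d₁).mp (hN₁ hd₁)
    obtain ⟨t₂, ht₂, rfl⟩ := (mem_powerClosure_iff hG h1 n _ d₂).mp (hN₂ hd₂)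
    obtain ⟨z₁, hz₁, f₁⟩ := pow_mul_pow hG h1 (n + 1) t₂ c
    obtain ⟨z₂, hz₂, f₂⟩ := pow_mul_pow hG h1 (n + 1) z₁ t₁
    have hz₁' := closure_pair_le ht₂ hc hz₁
    have hz₂' := closure_pair_le hz₁' ht₁ hz₂
    refine ⟨z₂, hz₂', ?_⟩
    rw [← f₂, ← f₁]
    have g1 : (a * b) ^ (p ^ (n + 1)) = ((a * b) ^ (p ^ n)) ^ p := by rw [pow_succ, pow_mul]
    rw [g1, hab, e₁, e₂]
    simp only [pow_succ, pow_mul, mul_assoc]

end Cfsg.Agent.Lib.Helper38.Regular
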