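import Mathlib
import Cfsg.Prelude.Def_FusionSystem
import Cfsg.Agent.Lib.Helper87.FusionStrongly
import Cfsg.Agent.Lib.Helper87.FusionMore
import Cfsg.Agent.Lib.Helper87.FusionTate
import Cfsg.Agent.S5128

/-!
# Lattice lemmas for strongly closed subgroups (towards S5271)
-/

set_option autoImplicit false

namespace Cfsg.Agent.Lib.Helper38.Wh

open Cfsg Cfsg.FusionSystem

variable {Ω : Type*} [Group Ω]

/-- Elements of a join are products when the first subgroup normalizes the second. -/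
theorem mem_sup_mul {A B : Subgroup Ω} (hn : ∀ a ∈ A, ∀ b ∈ B, a * b * a⁻¹ ∈ B) {x : Ω}
    (hx : x ∈ A ⊔ B) : ∃ a ∈ A, ∃ b ∈ B, x = a * b := by
  rw [Subgroup.sup_eq_closure] at hx
  induction hx using Subgroup.closure_induction with
  | mem x hx =>
    rcases hx with hx | hx
    · exact ⟨x, hx, 1, B.one_mem, (mul_one x).symm⟩
    · exact ⟨1, A.one_mem, x, hx, (one_mul x).symm⟩
  | one => exact ⟨1, A.one_mem, 1, B.one_mem, (mul_one 1).symm⟩
  | mul x y _ _ hx hy =>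
    obtain ⟨a, ha, b, hb, rfl⟩ := hx
    obtain ⟨a', ha', b', hb', rfl⟩ := hy
    refine ⟨a * a', A.mul_mem ha ha', a'⁻¹ * b * a'⁻¹⁻¹ * b', B.mul_mem
      (hn a'⁻¹ (A.inv_mem ha') b hb) hb', ?_⟩
    group
  | inv x _ hx =>
    obtain ⟨a, ha, b, hb, rfl⟩ := hx
    refine ⟨a⁻¹, A.inv_mem ha, a * b⁻¹ * a⁻¹, hn a ha b⁻¹ (B.inv_mem hb), ?_⟩
    group

/-- Elements of a join are products when the second subgroup normalizes the first. -/
theorem mem_sup_mul' {A B : Subgroup Ω} (hn : ∀ b ∈ B, ∀ a ∈ A, b * a * b⁻¹ ∈ A) {x : Ω}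
    (hx : x ∈ A ⊔ B) : ∃ a ∈ A, ∃ b ∈ B, x = a * b := by
  rw [sup_comm] at hx
  obtain ⟨b, hb, a, ha, rfl⟩ := mem_sup_mul hn hx
  exact ⟨b * a * b⁻¹, hn b hb a ha, b, hb, by group⟩

/-- Dedekind's modular law. -/
theorem modular_le {A B C : Subgroup Ω} (hAC : A ≤ C)
    (hmul : ∀ x ∈ A ⊔ B, ∃ a ∈ A, ∃ b ∈ B, x = a * b) : C ⊓ (A ⊔ B) ≤ A ⊔ (C ⊓ B) := by
  intro x hx
  obtain ⟨hxC, hxAB⟩ := Subgroup.mem_inf.1 hx
  obtain ⟨a, ha, b, hb, rfl⟩ := hmul x hxAB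
  have hbC : b ∈ C := by
    have h1 : b = a⁻¹ * (a * b) := by group
    rw [h1]
    exact C.mul_mem (C.inv_mem (hAC ha)) hxC
  exact Subgroup.mul_mem _ (Subgroup.mem_sup_left ha) (Subgroup.mem_sup_right ⟨hbC, hb⟩)

/-- In a finite `p`-group there are subgroups of every intermediate order between two given
subgroups. -/
theorem exists_between {p : ℕ} [Fact p.Prime] {A B : Subgroup Ω} [Finite B] (hB : IsPGroup p B)
    (hAB : A ≤ B) {d : ℕ} (h1 : Nat.card A ≤ p ^ d) (h2 : p ^ d ≤ Nat.card B) :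
    ∃ Q : Subgroup Ω, A ≤ Q ∧ Q ≤ B ∧ Nat.card Q = p ^ d := by
  have hp : 1 < p := (Fact.out : p.Prime).one_lt
  obtain ⟨b, hb⟩ := hB.exists_card_eq
  have hA' : IsPGroup p (A.subgroupOf B) := hB.to_subgroup _
  obtain ⟨a, ha⟩ := hA'.exists_card_eq
  have hcA : Nat.card (A.subgroupOf B) = Nat.card A :=
    Nat.card_congr (Subgroup.subgroupOfEquivOfLe hAB).toEquiv
  have had : a ≤ d := by
    rw [hcA] at ha
    rw [ha] at h1
    exact (Nat.pow_le_pow_iff_right hp).1 h1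
  have hdb : d ≤ b := by
    rw [hb] at h2
    exact (Nat.pow_le_pow_iff_right hp).1 h2
  have hdvd : p ^ d ∣ Nat.card B := by
    rw [hb]
    exact pow_dvd_pow p hdb
  obtain ⟨K, hK, hAK⟩ := Sylow.exists_subgroup_card_pow_prime_le p hdvd (A.subgroupOf B) ha had
  refine ⟨K.map B.subtype, ?_, ?_, ?_⟩
  · intro x hx
    exact ⟨⟨x, hAB hx⟩, hAK (Subgroup.mem_subgroupOf.2 hx), rfl⟩
  · rintro _ ⟨y, -, rfl⟩
    exact y.2
  · rw [Subgroup.card_map_of_injective B.subtype_injective, hK]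

/-- Existence of an element maximizing a bounded natural-valued function. -/
theorem exists_max_nat {α : Type*} (C : α → Prop) (f : α → ℕ) (b : ℕ)
    (hb : ∀ a, C a → f a ≤ b) (a0 : α) (h0 : C a0) :
    ∃ a, C a ∧ ∀ a', C a' → f a' ≤ f a := by
  by_contra hcon
  push Not at hcon
  have key : ∀ n : ℕ, ∃ a, C a ∧ n ≤ f a := by
    intro n
    induction n with
    | zero => exact ⟨a0, h0, Nat.zero_le _⟩
    | succ n ih =>
      obtain ⟨a, ha, hn⟩ := ih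
      obtain ⟨a', ha', hlt⟩ := hcon a ha
      exact ⟨a', ha', by omega⟩
  obtain ⟨a, ha, hn⟩ := key (b + 1)
  have := hb a ha
  omega

/-- Existence of an element minimizing a natural-valued function. -/
theorem exists_min_nat {α : Type*} (C : α → Prop) (f : α → ℕ) (a0 : α) (h0 : C a0) :
    ∃ a, C a ∧ ∀ a', C a' → f a ≤ f a' := by
  classical
  have hex : ∃ n, ∃ a, C a ∧ f a = n := ⟨f a0, a0, h0, rfl⟩
  obtain ⟨a, ha, hfa⟩ := Nat.find_spec hex
  refine ⟨a, ha, fun a' ha' => ?_⟩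
  rw [hfa]
  exact Nat.find_min' hex ⟨a', ha', rfl⟩

variable {S : Subgroup Ω}

theorem sc_inf (F : FusionSystem S) {T₁ T₂ : Subgroup Ω} (h₁ : F.StronglyClosed T₁)
    (h₂ : F.StronglyClosed T₂) : F.StronglyClosed (T₁ ⊓ T₂) :=
  ⟨inf_le_left.trans h₁.1, fun R hR φ hφ x =>
    ⟨h₁.2 R (hR.trans inf_le_left) φ hφ x, h₂.2 R (hR.trans inf_le_right) φ hφ x⟩⟩

theorem sc_top (F : FusionSystem S) : F.StronglyClosed S :=
  ⟨le_rfl, fun _ _ _ hφ x => (F.le_of_mem hφ).2 x⟩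

theorem sc_sup [Finite S] {p : ℕ} [Fact p.Prime] (hS : IsPGroup p S) (F : FusionSystem S)
    (hF : F.IsSaturated p) {T₁ T₂ : Subgroup Ω} (h₁ : F.StronglyClosed T₁)
    (h₂ : F.StronglyClosed T₂) : F.StronglyClosed (T₁ ⊔ T₂) :=
  Cfsg.Agent.S5128.result p hS F hF T₁ T₂ h₁ h₂

/-- Products with a strongly closed subgroup. -/
theorem sc_mul_left (F : FusionSystem S) {T A : Subgroup Ω} (hT : F.StronglyClosed T)
    (hA : A ≤ S) : ∀ x ∈ T ⊔ A, ∃ a ∈ T, ∃ b ∈ A, x = a * b :=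
  fun _ hx => mem_sup_mul' (fun _ hb _ ha =>
    Helper87.stronglyClosed_conj_mem F hT (hA hb) ha) hx

theorem sc_mul_right (F : FusionSystem S) {T A : Subgroup Ω} (hT : F.StronglyClosed T)
    (hA : A ≤ S) : ∀ x ∈ A ⊔ T, ∃ a ∈ A, ∃ b ∈ T, x = a * b :=
  fun _ hx => mem_sup_mul (fun _ ha _ hb =>
    Helper87.stronglyClosed_conj_mem F hT (hA ha) hb) hx

end Cfsg.Agent.Lib.Helper38.Wh
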