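import Mathlib
import Cfsg.Prelude.Def_FusionSystem
import Cfsg.Agent.Lib.Helper38.WhA

/-!
# The interval lemma for strongly closed subgroups (towards S5271)
-/

set_option autoImplicit false

namespace Cfsg.Agent.Lib.Helper38.Wh

open Cfsg Cfsg.FusionSystem

variable {Ω : Type*} [Group Ω] {S : Subgroup Ω}

/-- If every subgroup of order `p ^ d` is weakly embedded, then every strongly closed subgroup of
order at least `p ^ d` contains a strongly closed subgroup of order exactly `p ^ d`. -/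
theorem interval [Finite S] {p : ℕ} [Fact p.Prime] (hS : IsPGroup p S) (F : FusionSystem S)
    (hF : F.IsSaturated p) (d : ℕ)
    (ha : ∀ Q : Subgroup Ω, Q ≤ S → Nat.card Q = p ^ d → ∃ P : Subgroup Ω,
      F.StronglyClosed P ∧ F.StronglyClosed (Q ⊔ P) ∧ F.StronglyClosed (Q ⊓ P))
    {Ytop : Subgroup Ω} (hYtop : F.StronglyClosed Ytop) (hcard : p ^ d ≤ Nat.card Ytop) :
    ∃ H : Subgroup Ω, F.StronglyClosed H ∧ H ≤ Ytop ∧ Nat.card H = p ^ d := by
  have hfin : ∀ {Z : Subgroup Ω}, Z ≤ S → Finite Z := fun h =>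
    Finite.of_injective _ (Subgroup.inclusion_injective h)
  have hpg : ∀ {Z : Subgroup Ω}, Z ≤ S → IsPGroup p Z := fun h =>
    hS.of_injective (Subgroup.inclusion h) (Subgroup.inclusion_injective h)
  -- a largest strongly closed subgroup of order at most `p ^ d`
  obtain ⟨Ylo, ⟨hYlo, hYloT, hYloc⟩, hYlomax⟩ := exists_max_nat
    (fun Z : Subgroup Ω => F.StronglyClosed Z ∧ Z ≤ Ytop ∧ Nat.card Z ≤ p ^ d)
    (fun Z => Nat.card Z) (p ^ d) (fun Z hZ => hZ.2.2) ⊥
    ⟨Helper87.stronglyClosed_bot F, bot_le, by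
      rw [Subgroup.card_bot]; exact Nat.one_le_pow _ _ (Fact.out : p.Prime).pos⟩
  by_cases hlo : Nat.card Ylo = p ^ d
  · exact ⟨Ylo, hYlo, hYloT, hlo⟩
  exfalso
  have hlolt : Nat.card Ylo < p ^ d := lt_of_le_of_ne hYloc hlo
  have htoplt : p ^ d < Nat.card Ytop := by
    by_contra hcon
    have h1 := hYlomax Ytop ⟨hYtop, le_rfl, not_lt.1 hcon⟩
    omega
  -- a smallest strongly closed subgroup of order more than `p ^ d` above it
  obtain ⟨Yhi, ⟨hYhi, hlohi, hYhiT, hYhic⟩, hYhimin⟩ := exists_min_nat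
    (fun Z : Subgroup Ω => F.StronglyClosed Z ∧ Ylo ≤ Z ∧ Z ≤ Ytop ∧ p ^ d < Nat.card Z)
    (fun Z => Nat.card Z) Ytop ⟨hYtop, hYloT, le_rfl, htoplt⟩
  have hYhiS : Yhi ≤ S := hYhi.1
  have : Finite Yhi := hfin hYhiS
  -- nothing strongly closed in between
  have hstar : ∀ Z : Subgroup Ω, F.StronglyClosed Z → Ylo ≤ Z → Z ≤ Yhi → Z = Ylo ∨ Z = Yhi := by
    intro Z hZ h1 h2
    have : Finite Z := hfin hZ.1
    by_cases hc : Nat.card Z ≤ p ^ d
    · left
      have h3 := hYlomax Z ⟨hZ, h2.trans hYhiT, hc⟩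
      exact (Subgroup.eq_of_le_of_card_ge h1 h3).symm
    · right
      have h3 := hYhimin Z ⟨hZ, h1, h2.trans hYhiT, not_le.1 hc⟩
      exact Subgroup.eq_of_le_of_card_ge h2 h3
  obtain ⟨Q, hloQ, hQhi, hQc⟩ := exists_between (hpg hYhiS) hlohi hlolt.le hYhic.le
  have hQS : Q ≤ S := hQhi.trans hYhiS
  have : Finite Q := hfin hQS
  have hQnehi : ¬ Yhi ≤ Q := by
    intro h
    have := Subgroup.card_le_of_le h
    omega
  have hQnelo : ¬ Q ≤ Ylo := by
    intro h
    have : Finite Ylo := hfin hYlo.1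
    have := Subgroup.card_le_of_le h
    omega
  obtain ⟨P, hP, hQP, hQiP⟩ := ha Q hQS hQc
  -- `Q ⊓ P ≤ Ylo`
  have h1 : Q ⊓ P ≤ Ylo := by
    rcases hstar ((Q ⊓ P) ⊔ Ylo) (sc_sup hS F hF hQiP hYlo) le_sup_right
      (sup_le (inf_le_left.trans hQhi) hlohi) with h | h
    · rw [← h]; exact le_sup_left
    · exact absurd (h ▸ sup_le inf_le_left hloQ) hQnehi
  -- `Yhi ≤ Q ⊔ P`
  have h2 : Yhi ≤ Q ⊔ P := by
    rcases hstar ((Q ⊔ P) ⊓ Yhi) (sc_inf F hQP hYhi) (le_inf (hloQ.trans le_sup_left) hlohi)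
      inf_le_right with h | h
    · exact absurd (h ▸ le_inf le_sup_left hQhi) hQnelo
    · rw [← h]; exact inf_le_left
  have h3 : Yhi ≤ Q ⊔ (Yhi ⊓ P) := by
    have := modular_le (A := Q) (B := P) (C := Yhi) hQhi (sc_mul_right F hP hQS)
    exact (le_inf le_rfl h2).trans this
  rcases hstar ((Yhi ⊓ P) ⊔ Ylo) (sc_sup hS F hF (sc_inf F hYhi hP) hYlo) le_sup_right
    (sup_le inf_le_left hlohi) with h | h
  · have h4 : Yhi ⊓ P ≤ Q := by
      have : Yhi ⊓ P ≤ Ylo := by rw [← h]; exact le_sup_left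
      exact this.trans hloQ
    exact hQnehi (h3.trans (sup_le le_rfl h4))
  · have h4 : Q ≤ Ylo ⊔ (Q ⊓ (Yhi ⊓ P)) := by
      have := modular_le (A := Ylo) (B := Yhi ⊓ P) (C := Q) hloQ
        (sc_mul_left F hYlo (inf_le_left.trans hYhiS))
      refine le_trans (le_inf le_rfl ?_) this
      rw [sup_comm, h]
      exact hQhi
    have h5 : Q ⊓ (Yhi ⊓ P) ≤ Ylo := by
      refine le_trans ?_ h1
      exact le_inf inf_le_left (inf_le_right.trans inf_le_right)
    exact hQnelo (h4.trans (sup_le le_rfl h5))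

end Cfsg.Agent.Lib.Helper38.Wh
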