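import Mathlib
import Cfsg.Prelude.Def_FusionSystem
import Cfsg.Agent.Lib.Helper38.WhB
import Cfsg.Agent.Lib.Helper87.FusionFactor
import Cfsg.Agent.Lib.Helper87.FusionNormal

/-!
# Strongly closed subgroups with inner normalizer system contain the hyperfocal subgroup
-/

set_option autoImplicit false

namespace Cfsg.Agent.Lib.Helper38.Wh

open Cfsg Cfsg.FusionSystem

variable {Ω : Type*} [Group Ω] {S : Subgroup Ω}

/-- If the normalizer system of the strongly closed subgroup `H` is inner, every map of the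
system defined on an overgroup of `H` is a conjugation by an element of `S`. -/
theorem conj_of_sc [Finite S] (F : FusionSystem S) {H : Subgroup Ω} (hH : F.StronglyClosed H)
    (hb : ∀ N : FusionSystem (normalizerIn S H), F.IsNormalizerSystem H N →
      ∀ P : Subgroup Ω, N.Hom P = (innerFusionSystem (normalizerIn S H)).Hom P) :
    ∀ R : Subgroup Ω, H ≤ R → ∀ ψ ∈ F.Hom R, ∃ g ∈ S, ∀ x : R, ψ x = g * x * g⁻¹ := by
  intro R hHR ψ hψ
  have hHS := hH.1
  have hRS : R ≤ S := Helper87.hom_le F hψ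
  have hSn := Helper87.stronglyClosed_le_normalizer F hH
  have h := hb _ (Helper87.isNormalizerSystem_normSystem F H hHS) R
  have hmem : ψ ∈ (Helper87.normSystem F H (normalizerIn S H) hHS inf_le_left
      inf_le_right).Hom R := by
    refine ⟨hψ, fun x hx => ⟨hRS hx, hSn (hRS hx)⟩,
      fun x => ⟨Helper87.hom_mem F hψ x, hSn (Helper87.hom_mem F hψ x)⟩, ?_⟩
    have hRH : R ⊔ H = R := sup_eq_left.2 hHR
    refine ⟨ψ.comp (Subgroup.inclusion hRH.le), Helper87.hom_of_eq F hRH hψ, fun x => rfl, ?_⟩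
    rw [Helper87.map_subgroupOf_eq_iff le_sup_right]
    refine ⟨fun q hq => ?_, fun q hq => ?_⟩
    · exact Helper87.stronglyClosed_hom_mem F hH hψ ⟨q, hHR hq⟩ hq
    · have hfinH : Finite H := Finite.of_injective _ (Subgroup.inclusion_injective hHS)
      obtain ⟨f, hf⟩ : ∃ f : H → H, ∀ q : H, ((f q : H) : Ω) = ψ ⟨q, hHR q.2⟩ :=
        ⟨fun q => ⟨ψ ⟨q, hHR q.2⟩, Helper87.stronglyClosed_hom_mem F hH hψ ⟨q, hHR q.2⟩ q.2⟩,
          fun q => rfl⟩
      have hinj : Function.Injective f := by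
        intro a b hab
        have h1 : ψ ⟨a, hHR a.2⟩ = ψ ⟨b, hHR b.2⟩ := by
          rw [← hf a, ← hf b, hab]
        have h2 := F.injective_of_mem hψ h1
        have h3 : ((⟨(a : Ω), hHR a.2⟩ : R) : Ω) = ((⟨(b : Ω), hHR b.2⟩ : R) : Ω) :=
          congrArg Subtype.val h2
        exact Subtype.ext h3
      obtain ⟨y, hy⟩ := Finite.surjective_of_injective hinj ⟨q, hq⟩
      refine ⟨y, y.2, ?_⟩
      have h3 := hf y
      rw [hy] at h3
      exact h3.symm
  rw [h] at hmem
  obtain ⟨-, g, hg, hgψ⟩ := hmem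
  exact ⟨g, hg.1, hgψ⟩

/-- If every map of the system defined on an overgroup of the strongly closed subgroup `H` is a
conjugation by an element of `S`, then `H` contains the hyperfocal subgroup. -/
theorem hyp_le_of_conj [Finite S] {p : ℕ} [Fact p.Prime] (hS : IsPGroup p S)
    (F : FusionSystem S) (hF : F.IsSaturated p) {H : Subgroup Ω} (hH : F.StronglyClosed H)
    (hc : ∀ R : Subgroup Ω, H ≤ R → ∀ ψ ∈ F.Hom R, ∃ g ∈ S, ∀ x : R, ψ x = g * x * g⁻¹) :
    F.hyperfocalSubgroup p ≤ H := by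
  have key : ∀ P : Subgroup Ω, P ≤ S →
      pResidual p (F.autGroup P) ≤ (Helper87.trivMod H P).subgroupOf (F.autGroup P) := by
    intro P hPS
    unfold pResidual
    rw [Subgroup.closure_le]
    intro β hβ
    rw [SetLike.mem_coe, Subgroup.mem_subgroupOf, Helper87.mem_trivMod]
    have hβ' : (orderOf β).Coprime p := hβ
    obtain ⟨b, hbdef⟩ : ∃ b : MulAut P, b = (β : MulAut P) := ⟨_, rfl⟩
    rw [← hbdef]
    have hφ : P.subtype.comp b.toMonoidHom ∈ F.Hom P := by
      rw [hbdef]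
      exact (Helper87.mem_autGroup_iff F hPS _).1 β.2
    obtain ⟨ψ, hψ, hψx⟩ := Helper87.exists_hom_sup_mod hS F hF hH hφ
    obtain ⟨g, hg, hgψ⟩ := hc (P ⊔ H) le_sup_right ψ hψ
    have h1 : ∀ x : P, ((b x : P) : Ω)⁻¹ * (g * (x : Ω) * g⁻¹) ∈ H := by
      intro x
      have h := hψx x
      rw [hgψ] at h
      exact h
    have h2 : ∀ k : ℕ, ∀ x : P,
        (((b ^ k) x : P) : Ω)⁻¹ * (g ^ k * (x : Ω) * (g ^ k)⁻¹) ∈ H := by
      intro k
      induction k with
      | zero =>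
        intro x
        simp
      | succ k ih =>
        intro x
        have e1 : (b ^ (k + 1)) x = b ((b ^ k) x) := by
          rw [pow_succ']
          rfl
        have a1 := h1 ((b ^ k) x)
        have a2 := Helper87.stronglyClosed_conj_mem F hH hg (ih x)
        have e : (((b ^ (k + 1)) x : P) : Ω)⁻¹ * (g ^ (k + 1) * (x : Ω) * (g ^ (k + 1))⁻¹)
            = ((b ((b ^ k) x) : P) : Ω)⁻¹ * (g * (((b ^ k) x : P) : Ω) * g⁻¹)
              * (g * ((((b ^ k) x : P) : Ω)⁻¹ * (g ^ k * (x : Ω) * (g ^ k)⁻¹)) * g⁻¹) := by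
          rw [e1, pow_succ']
          group
        rw [e]
        exact H.mul_mem a1 a2
    obtain ⟨n, hn⟩ := hS.exists_card_eq
    have hgn : g ^ (p ^ n) = 1 := by
      have h3 : (⟨g, hg⟩ : S) ^ (p ^ n) = 1 := by
        rw [← hn]
        exact pow_card_eq_one'
      exact congrArg Subtype.val h3
    obtain ⟨k, hkdef⟩ : ∃ k : ℕ, k = (p ^ n) ^ Nat.totient (orderOf β) := ⟨_, rfl⟩
    have hcop : Nat.Coprime (p ^ n) (orderOf β) := (Nat.Coprime.pow_right n hβ').symm
    have hk1 : k ≡ 1 [MOD orderOf β] := by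
      rw [hkdef]
      exact Nat.ModEq.pow_totient hcop
    have hord : orderOf β ≠ 0 := by
      intro h0
      rw [h0, Nat.coprime_zero_left] at hβ'
      exact (Fact.out : p.Prime).one_lt.ne' hβ'
    have hgk : g ^ k = 1 := by
      rw [hkdef]
      apply orderOf_dvd_iff_pow_eq_one.1
      exact (orderOf_dvd_of_pow_eq_one hgn).trans
        (dvd_pow_self _ (Nat.totient_pos.2 (Nat.pos_of_ne_zero hord)).ne')
    have hβk : β ^ k = β := by
      have h4 : β ^ k = β ^ 1 := pow_eq_pow_iff_modEq.2 hk1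
      rwa [pow_one] at h4
    have hbk : b ^ k = b := by
      rw [hbdef]
      have h5 := congrArg Subtype.val hβk
      rwa [Subgroup.coe_pow] at h5
    intro x
    have h6 := h2 k x
    rw [hbk, hgk] at h6
    have h7 := H.inv_mem h6
    have e : (((b x : P) : Ω)⁻¹ * (1 * (x : Ω) * (1 : Ω)⁻¹))⁻¹ = (x : Ω)⁻¹ * ((b x : P) : Ω) := by
      group
    rwa [e] at h7
  unfold FusionSystem.hyperfocalSubgroup
  rw [Subgroup.closure_le]
  rintro y ⟨P, α, x, hPS, hα, rfl⟩
  have h := key P hPS hα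
  rw [Subgroup.mem_subgroupOf, Helper87.mem_trivMod] at h
  exact h x

/-- The hypotheses of the criterion, in the form used below. -/
structure Hyp (F : FusionSystem S) (p d : ℕ) : Prop where
  ha : ∀ Q : Subgroup Ω, Q ≤ S → Nat.card Q = p ^ d → ∃ P : Subgroup Ω,
      F.StronglyClosed P ∧ F.StronglyClosed (Q ⊔ P) ∧ F.StronglyClosed (Q ⊓ P)
  hb : ∀ H : Subgroup Ω, F.IsFullyNormalized H → Nat.card H = p ^ d →
      ∀ N : FusionSystem (normalizerIn S H), F.IsNormalizerSystem H N →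
        ∀ P : Subgroup Ω, N.Hom P = (innerFusionSystem (normalizerIn S H)).Hom P

theorem Hyp.conj [Finite S] {p : ℕ} [Fact p.Prime] (hS : IsPGroup p S)
    {F : FusionSystem S} (hF : F.IsSaturated p) {d : ℕ} (h : Hyp F p d)
    {Y : Subgroup Ω} (hY : F.StronglyClosed Y) (hc : p ^ d ≤ Nat.card Y) :
    ∃ H : Subgroup Ω, F.StronglyClosed H ∧ H ≤ Y ∧
      ∀ R : Subgroup Ω, H ≤ R → ∀ ψ ∈ F.Hom R, ∃ g ∈ S, ∀ x : R, ψ x = g * x * g⁻¹ := by
  obtain ⟨H, hH, hHY, hHc⟩ := interval hS F hF d h.ha hY hc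
  have hfn : F.IsFullyNormalized H :=
    Helper87.isFullyNormalized_of_normal F hH.1 (Helper87.stronglyClosed_le_normalizer F hH)
  exact ⟨H, hH, hHY, conj_of_sc F hH (h.hb H hfn hHc)⟩

/-- Every strongly closed subgroup of order at least `p ^ d` contains the hyperfocal subgroup. -/
theorem Hyp.hyp_le [Finite S] {p : ℕ} [Fact p.Prime] (hS : IsPGroup p S)
    {F : FusionSystem S} (hF : F.IsSaturated p) {d : ℕ} (h : Hyp F p d)
    {Y : Subgroup Ω} (hY : F.StronglyClosed Y) (hc : p ^ d ≤ Nat.card Y) :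
    F.hyperfocalSubgroup p ≤ Y := by
  obtain ⟨H, hH, hHY, hconj⟩ := h.conj hS hF hY hc
  exact (hyp_le_of_conj hS F hF hH hconj).trans hHY

/-- The automorphisms of `S` in the system are inner. -/
theorem Hyp.aut_inner [Finite S] {p : ℕ} [Fact p.Prime] (hS : IsPGroup p S)
    {F : FusionSystem S} (hF : F.IsSaturated p) {d : ℕ} (h : Hyp F p d)
    (hc : p ^ d ≤ Nat.card S) :
    ∀ φ ∈ F.Hom S, ∃ g ∈ S, ∀ x : S, φ x = g * x * g⁻¹ := by
  obtain ⟨H, hH, hHS, hconj⟩ := h.conj hS hF (sc_top F) hc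
  exact hconj S hHS

end Cfsg.Agent.Lib.Helper38.Wh
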